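import Cfsg.Agent.H125.DPi.Sem

/-!
# S4247, row L (`PSL_n`), L1: two double cosets and transitivity on points (helper125)

* `pk P K` : the group `{conj x * k}`; `cover`; `b_trans`.
-/

set_option autoImplicit false
set_option linter.unusedSectionVars false

namespace Cfsg.Agent.H125.DPi

open Module Cfsg Cfsg.Agent.H233.RC Cfsg.Agent.H202.RC Cfsg.Agent.H988.CPi Cfsg.Agent.H571.RV Cfsg.Agent.H817.DPi

universe u

section pts

variable (F V : Type) [Field F] [AddCommGroup V] [Module F V]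

/-- the points (lines of `V`) -/
def Pt : Type := {L : Set V // ∃ v : V, v ≠ 0 ∧ L = Set.range (fun c : F => c • v)}

instance [Finite V] : Finite (Pt F V) := by unfold Pt; infer_instance

variable {F V}

/-- the point of a vector -/
def pt (F : Type) [Field F] [Module F V] (v : V) (hv : v ≠ 0) : Pt F V := ⟨Set.range (fun c : F => c • v), v, hv, rfl⟩

theorem exists_pt (L : Pt F V) : ∃ (v : V) (hv : v ≠ 0), L = pt F v hv := by
  obtain ⟨L, v, hv, rfl⟩ := L
  exact ⟨v, hv, rfl⟩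

theorem pt_eq_iff {v w : V} (hv : v ≠ 0) (hw : w ≠ 0) : pt F v hv = pt F w hw ↔ ∃ c : F, v = c • w := by
  constructor
  · intro h
    have h1 : v ∈ (pt F w hw).1 := by
      rw [← h]
      exact ⟨1, one_smul _ _⟩
    obtain ⟨c, hc⟩ := h1
    exact ⟨c, hc.symm⟩
  · rintro ⟨c, hc⟩
    have hc0 : c ≠ 0 := by
      rintro rfl
      rw [zero_smul] at hc
      exact hv hc
    apply Subtype.ext
    change Set.range (fun d : F => d • v) = Set.range (fun d : F => d • w)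
    ext x
    constructor
    · rintro ⟨d, rfl⟩
      refine ⟨d * c, ?_⟩
      change (d * c) • w = d • v
      rw [hc, mul_smul]
    · rintro ⟨d, rfl⟩
      refine ⟨d * c⁻¹, ?_⟩
      change (d * c⁻¹) • v = d • w
      rw [hc, smul_smul, mul_assoc, inv_mul_cancel₀ hc0, mul_one]

theorem image_range (g : Sem F V) (v : V) :
    g.1 '' (Set.range (fun c : F => c • v)) = Set.range (fun c : F => c • g.1 v) := by
  obtain ⟨-, σ, hσ⟩ := g.2
  ext x
  constructor
  · rintro ⟨_, ⟨c, rfl⟩, rfl⟩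
    exact ⟨σ c, (hσ c v).symm⟩
  · rintro ⟨c, rfl⟩
    refine ⟨_, ⟨σ.symm c, rfl⟩, ?_⟩
    change g.1 (σ.symm c • v) = c • g.1 v
    rw [hσ, σ.apply_symm_apply]

theorem sem_ne (g : Sem F V) {v : V} (hv : v ≠ 0) : g.1 v ≠ 0 := by
  intro h
  have h0 : g.1 0 = 0 := (adE g.2).map_zero
  exact hv (g.1.injective (h.trans h0.symm))

instance : MulAction (Sem F V) (Pt F V) where
  smul g L := ⟨g.1 '' L.1, by
    obtain ⟨L, v, hv, rfl⟩ := L
    exact ⟨g.1 v, sem_ne g hv, image_range g v⟩⟩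
  one_smul L := Subtype.ext (by
    change (id : V → V) '' L.1 = L.1
    exact Set.image_id _)
  mul_smul g h L := Subtype.ext (by
    change (g.1 ∘ h.1) '' L.1 = g.1 '' (h.1 '' L.1)
    exact Set.image_comp _ _ _)

theorem smul_pt (g : Sem F V) (v : V) (hv : v ≠ 0) : g • pt F v hv = pt F (g.1 v) (sem_ne g hv) :=
  Subtype.ext (image_range g v)

end pts

section two

variable {F V : Type} [Field F] [AddCommGroup V] [Module F V]

theorem exists_dual' {W : Submodule F V} {x : V} (hx : x ∉ W) : ∃ φ : Dual F V, φ x = 1 ∧ ∀ w ∈ W, φ w = 0 := by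
  obtain ⟨f, hf, hW⟩ := Submodule.exists_dual_map_eq_bot_of_notMem hx inferInstance
  refine ⟨(f x)⁻¹ • f, ?_, fun w hw => ?_⟩
  · rw [LinearMap.smul_apply, smul_eq_mul, inv_mul_cancel₀ hf]
  · have : f w ∈ W.map f := ⟨w, hw, rfl⟩
    rw [hW, Submodule.mem_bot] at this
    rw [LinearMap.smul_apply, this, smul_zero]

theorem sl_trans [Module.Finite F V] {v w : V} (hv : v ≠ 0) (hw : w ≠ 0) :
    ∃ s : SLV F V, ∃ c : F, c ≠ 0 ∧ (s : V ≃ₗ[F] V) v = c • w := by
  by_cases h : ∃ c : F, v = c • w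
  · obtain ⟨c, hc⟩ := h
    refine ⟨1, c, ?_, hc⟩
    rintro rfl
    rw [zero_smul] at hc
    exact hv hc
  · have h1 : v ∉ Submodule.span F {w - v} := by
      intro h1
      obtain ⟨a, ha⟩ := Submodule.mem_span_singleton.1 h1
      have ha0 : a ≠ 0 := by
        rintro rfl
        rw [zero_smul] at ha
        exact hv ha.symm
      by_cases ha1 : 1 + a = 0
      · have h2 : a = -1 := by linear_combination ha1
        rw [h2, neg_smul, one_smul, neg_sub, sub_eq_self] at ha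
        exact hw ha
      · apply h
        refine ⟨(1 + a)⁻¹ * a, ?_⟩
        have h2 : (1 + a) • v = a • w := by
          rw [add_smul, one_smul]
          nth_rewrite 1 [← ha]
          rw [smul_sub, sub_add_cancel]
        rw [mul_smul, ← h2, smul_smul, inv_mul_cancel₀ ha1, one_smul]
    obtain ⟨φ, h2, h3⟩ := exists_dual' h1
    refine ⟨tv φ (w - v) (h3 _ (Submodule.mem_span_singleton_self _)), 1, one_ne_zero, ?_⟩
    rw [tv_apply, h2, one_smul, one_smul, add_sub_cancel]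

theorem sl_trans_stab [Module.Finite F V] {u v w : V} (hv : ¬ ∃ c : F, v = c • u)
    (hw : ¬ ∃ c : F, w = c • u) : ∃ s : SLV F V, (s : V ≃ₗ[F] V) u = u ∧ ∃ c : F, c ≠ 0 ∧ (s : V ≃ₗ[F] V) v = c • w := by
  by_cases h : v ∈ Submodule.span F {u, w - v}
  · obtain ⟨a, b, hab⟩ := Submodule.mem_span_pair.1 h
    have hb : b ≠ 0 := by
      rintro rfl
      apply hv
      exact ⟨a, by rw [← hab, zero_smul, add_zero]⟩
    have h1 : (1 + b) • v = a • u + b • w := by
      rw [add_smul, one_smul]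
      nth_rewrite 1 [← hab]
      rw [smul_sub]
      abel
    have hb1 : 1 + b ≠ 0 := by
      intro h2
      rw [h2, zero_smul] at h1
      apply hw
      refine ⟨-(b⁻¹ * a), ?_⟩
      have h3 : b • w = -(a • u) := by rw [eq_neg_iff_add_eq_zero, add_comm]; exact h1.symm
      rw [neg_smul, mul_smul, ← smul_neg, ← h3, smul_smul, inv_mul_cancel₀ hb, one_smul]
    have h4 : v ∉ Submodule.span F {u} := by
      intro h4
      obtain ⟨c, hc⟩ := Submodule.mem_span_singleton.1 h4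
      exact hv ⟨c, hc.symm⟩
    obtain ⟨φ, h5, h6⟩ := exists_dual' h4
    have h7 : φ u = 0 := h6 u (Submodule.mem_span_singleton_self _)
    refine ⟨tv φ (-((1 + b)⁻¹ * a) • u) (by rw [map_smul, h7, smul_zero]), ?_, (1 + b)⁻¹ * b, ?_, ?_⟩
    · rw [tv_apply, h7, zero_smul, add_zero]
    · exact mul_ne_zero (inv_ne_zero hb1) hb
    · rw [tv_apply, h5, one_smul]
      have h8 : v = (1 + b)⁻¹ • (a • u + b • w) := by rw [← h1, smul_smul, inv_mul_cancel₀ hb1, one_smul]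
      nth_rewrite 1 [h8]
      rw [smul_add, neg_smul, mul_smul, mul_smul]
      abel
  · obtain ⟨φ, h2, h3⟩ := exists_dual' h
    have h7 : φ u = 0 := h3 u (Submodule.subset_span (by simp))
    have h8 : φ (w - v) = 0 := h3 _ (Submodule.subset_span (by simp))
    refine ⟨tv φ (w - v) h8, ?_, 1, one_ne_zero, ?_⟩
    · rw [tv_apply, h7, zero_smul, add_zero]
    · rw [tv_apply, h2, one_smul, one_smul, add_sub_cancel]

end two

section cov

variable {π : Set ℕ} {S : Type u} [Group S] {P : Subgroup S} {K B : Subgroup (MulAut S)}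

/-- the group `P K` -/
def pk (P : Subgroup S) (K : Subgroup (MulAut S)) : Subgroup (MulAut S) := P.map MulAut.conj ⊔ K

theorem conj_mem_pk {x : S} (hx : x ∈ P) : MulAut.conj x ∈ pk P K :=
  (le_sup_left : P.map MulAut.conj ≤ pk P K) ⟨x, hx, rfl⟩

theorem le_pk : K ≤ pk P K := le_sup_right

theorem comm_pk (hfix : ∀ k ∈ K, ∀ x ∈ P, k x = x) {x : S} (hx : x ∈ P) {k : MulAut S} (hk : k ∈ K) :
    MulAut.conj x * k = k * MulAut.conj x := by
  apply MulEquiv.ext
  intro s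
  rw [MulAut.mul_apply, MulAut.mul_apply, MulAut.conj_apply, MulAut.conj_apply, map_mul, map_mul, map_inv,
    hfix k hk x hx]

theorem mem_pk (hfix : ∀ k ∈ K, ∀ x ∈ P, k x = x) {g : MulAut S} :
    g ∈ pk P K ↔ ∃ x ∈ P, ∃ k ∈ K, g = MulAut.conj x * k := by
  constructor
  · intro h
    unfold pk at h
    rw [Subgroup.sup_eq_closure] at h
    induction h using Subgroup.closure_induction with
    | mem y hy =>
      rcases hy with ⟨x, hx, rfl⟩ | hy
      · exact ⟨x, hx, 1, one_mem _, (mul_one _).symm⟩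
      · exact ⟨1, one_mem _, y, hy, by rw [map_one, one_mul]⟩
    | one => exact ⟨1, one_mem _, 1, one_mem _, by rw [map_one, one_mul]⟩
    | mul a b _ _ iha ihb =>
      obtain ⟨x, hx, k, hk, rfl⟩ := iha
      obtain ⟨y, hy, l, hl, rfl⟩ := ihb
      refine ⟨x * y, mul_mem hx hy, k * l, mul_mem hk hl, ?_⟩
      rw [map_mul, mul_assoc, ← mul_assoc k, ← comm_pk hfix hy hk]
      simp only [mul_assoc]
    | inv a _ iha =>
      obtain ⟨x, hx, k, hk, rfl⟩ := iha
      refine ⟨x⁻¹, inv_mem hx, k⁻¹, inv_mem hk, ?_⟩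
      rw [mul_inv_rev, ← map_inv, comm_pk hfix (inv_mem hx) (inv_mem hk)]
  · rintro ⟨x, hx, k, hk, rfl⟩
    exact mul_mem (conj_mem_pk hx) (le_pk hk)

theorem pk_le (c : Cfg π P K B) : pk P K ≤ B ⊔ inn S := by
  refine sup_le ?_ ?_
  · rintro _ ⟨x, -, rfl⟩
    exact (le_sup_right : inn S ≤ B ⊔ inn S) ⟨x, rfl⟩
  · rw [← c.sup]
    exact le_sup_left

variable {F : Type} [Field F] {n : ℕ}

/-- **two double cosets** -/
theorem cover [Fintype F] (hn : 3 ≤ n) (e : S ≃* Matrix.ProjectiveSpecialLinearGroup (Fin n) F) (c : Cfg π P K B) :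
    ∃ g₀ ∈ (B ⊔ inn S).comap (Th e), ∀ g ∈ (B ⊔ inn S).comap (Th e),
      (∃ m ∈ (pk P K).comap (Th e), ∃ b ∈ B.comap (Th e), g = m * b) ∨
      ∃ m ∈ (pk P K).comap (Th e), ∃ b ∈ B.comap (Th e), g = m * g₀ * b := by
  have hfac : ∀ g ∈ B ⊔ inn S, ∃ a ∈ pk P K, ∃ b ∈ B, g = a * b := by
    intro g hg
    obtain ⟨x, hx, k, hk, b, hb, h⟩ := c.fac g hg
    exact ⟨_, mul_mem (conj_mem_pk hx) (le_pk hk), b, hb, h⟩
  -- good products
  have good : ∀ g : Sem F (Fin n → F), ∀ a ∈ pk P K, ∀ b ∈ B, Th e g = a * b → a ∈ (Th e).range →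
      ∃ m ∈ (pk P K).comap (Th e), ∃ b ∈ B.comap (Th e), g = m * b := by
    intro g a ha b hb h h1
    obtain ⟨m, rfl⟩ := h1
    refine ⟨m, ha, m⁻¹ * g, ?_, by rw [mul_inv_cancel_left]⟩
    rw [Subgroup.mem_comap, map_mul, map_inv, h, inv_mul_cancel_left]
    exact hb
  by_cases hA : ∃ a₀ ∈ pk P K, a₀ ∉ (Th e).range
  · obtain ⟨a₀, ha₀, ha₀R⟩ := hA
    by_cases hB : ∃ b₀ ∈ B, b₀ ∉ (Th e).range
    · obtain ⟨b₀, hb₀, hb₀R⟩ := hB
      obtain ⟨g₀, hg₀⟩ := Th_index hn e ha₀R hb₀R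
      refine ⟨g₀, ?_, fun g hg => ?_⟩
      · rw [Subgroup.mem_comap, hg₀]
        exact mul_mem (pk_le c ha₀) (le_sup_left (a := B) hb₀)
      · obtain ⟨a, ha, b, hb, h⟩ := hfac _ hg
        by_cases h1 : a ∈ (Th e).range
        · exact Or.inl (good g a ha b hb h h1)
        · have h2 : b ∉ (Th e).range := by
            intro h2
            apply h1
            have : a = Th e g * b⁻¹ := by rw [h, mul_inv_cancel_right]
            rw [this]
            exact mul_mem ⟨g, rfl⟩ (inv_mem h2)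
          obtain ⟨m, hm⟩ := Th_index hn e h1 (fun h3 => ha₀R (by simpa using inv_mem h3) : a₀⁻¹ ∉ (Th e).range)
          refine Or.inr ⟨m, ?_, g₀⁻¹ * m⁻¹ * g, ?_, by group⟩
          · rw [Subgroup.mem_comap, hm]
            exact mul_mem ha (inv_mem ha₀)
          · rw [Subgroup.mem_comap, map_mul, map_mul, map_inv, map_inv, hg₀, hm, h]
            have : (a₀ * b₀)⁻¹ * (a * a₀⁻¹)⁻¹ * (a * b) = b₀⁻¹ * b := by group
            rw [this]
            exact mul_mem (inv_mem hb₀) hb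
    · push Not at hB
      refine ⟨1, one_mem _, fun g hg => ?_⟩
      obtain ⟨a, ha, b, hb, h⟩ := hfac _ hg
      refine Or.inl (good g a ha b hb h ?_)
      have : a = Th e g * b⁻¹ := by rw [h, mul_inv_cancel_right]
      rw [this]
      exact mul_mem ⟨g, rfl⟩ (inv_mem (hB b hb))
  · push Not at hA
    refine ⟨1, one_mem _, fun g hg => ?_⟩
    obtain ⟨a, ha, b, hb, h⟩ := hfac _ hg
    exact Or.inl (good g a ha b hb h (hA a ha))

/-- **if `P K` has three orbits on points, `B` is transitive on points** -/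
theorem b_trans [Fintype F] (hn : 3 ≤ n) (e : S ≃* Matrix.ProjectiveSpecialLinearGroup (Fin n) F) (c : Cfg π P K B)
    {x y z : Fin n → F} (hx : x ≠ 0) (hy : y ≠ 0) (hz : z ≠ 0)
    (hxy : ∀ g ∈ hat e (pk P K), ∀ a : F, g x ≠ a • y) (hxz : ∀ g ∈ hat e (pk P K), ∀ a : F, g x ≠ a • z)
    (hyz : ∀ g ∈ hat e (pk P K), ∀ a : F, g y ≠ a • z) :
    ∀ v w : Fin n → F, v ≠ 0 → w ≠ 0 → ∃ h ∈ hat e B, ∃ a : F, h v = a • w := by
  have : Finite (Fin n → F) := inferInstance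
  let G : Subgroup (Sem F (Fin n → F)) := (B ⊔ inn S).comap (Th e)
  have hSL : ∀ s : SLV F (Fin n → F), ∃ g : G, ∀ v, (g.1.1 : Equiv.Perm (Fin n → F)) v = (s : (Fin n → F) ≃ₗ[F] _) v := by
    intro s
    obtain ⟨A, rfl⟩ := (slE (Pi.basisFun F (Fin n))).surjective s
    refine ⟨⟨⟨mp A, mp_mem A⟩, ?_⟩, fun v => ?_⟩
    · change Th e ⟨mp A, mp_mem A⟩ ∈ B ⊔ inn S
      rw [Th_SL e ⟨mp A, mp_mem A⟩ (x := A) (mp_apply A)]
      exact (le_sup_right : inn S ≤ B ⊔ inn S) ⟨_, rfl⟩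
    · rfl
  have h2 : ∀ a b c d : Pt F (Fin n → F), a ≠ b → c ≠ d → ∃ g : G, g • a = c ∧ g • b = d := by
    intro a b c d hab hcd
    obtain ⟨a, ha, rfl⟩ := exists_pt a
    obtain ⟨b, hb, rfl⟩ := exists_pt b
    obtain ⟨c, hc, rfl⟩ := exists_pt c
    obtain ⟨d, hd, rfl⟩ := exists_pt d
    obtain ⟨s, α, hα, hs⟩ := sl_trans (F := F) ha hc
    obtain ⟨g, hg⟩ := hSL s
    have e1 : g • pt F a ha = pt F c hc := by
      change g.1 • pt F a ha = _
      rw [smul_pt, pt_eq_iff]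
      exact ⟨α, (hg a).trans hs⟩
    have hb' : g.1.1 b ≠ 0 := sem_ne g.1 hb
    have e2 : g • pt F b hb = pt F (g.1.1 b) hb' := smul_pt g.1 b hb
    have h3 : ¬ ∃ α : F, g.1.1 b = α • c := by
      intro h3
      apply hab
      rw [← pt_eq_iff hb' hc, ← e1, ← e2] at h3
      exact (MulAction.injective g h3).symm
    have h4 : ¬ ∃ α : F, d = α • c := by
      intro h4
      exact hcd ((pt_eq_iff hd hc).2 h4).symm
    obtain ⟨t, ht1, β, hβ, ht2⟩ := sl_trans_stab h3 h4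
    obtain ⟨k, hk⟩ := hSL t
    refine ⟨k * g, ?_, ?_⟩
    · rw [mul_smul, e1]
      change k.1 • pt F c hc = _
      rw [smul_pt, pt_eq_iff]
      exact ⟨1, by rw [one_smul]; exact (hk c).trans ht1⟩
    · rw [mul_smul, e2]
      change k.1 • pt F _ hb' = _
      rw [smul_pt, pt_eq_iff]
      exact ⟨β, (hk _).trans ht2⟩
  obtain ⟨g₀, hg₀, hcov⟩ := cover hn e c
  have hAG : (pk P K).comap (Th e) ≤ G := Subgroup.comap_mono (pk_le c)
  have hBG : B.comap (Th e) ≤ G := Subgroup.comap_mono le_sup_left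
  have no : ∀ (x y : Fin n → F) (hx : x ≠ 0) (hy : y ≠ 0), (∀ g ∈ hat e (pk P K), ∀ a : F, g x ≠ a • y) →
      ∀ g ∈ ((pk P K).comap (Th e)).subgroupOf G, g • pt F x hx ≠ pt F y hy := by
    intro x y hx hy h g hg h1
    change g.1 • pt F x hx = _ at h1
    rw [smul_pt, pt_eq_iff] at h1
    obtain ⟨a, ha⟩ := h1
    exact h g.1.1 (mem_hat.2 ⟨g.1.2, hg⟩) a ha
  have key := Cfsg.Agent.H206.DPi.two_trans' h2 (((pk P K).comap (Th e)).subgroupOf G) ((B.comap (Th e)).subgroupOf G)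
    ⟨g₀, hg₀⟩ (fun g => by
      rcases hcov g.1 g.2 with ⟨m, hm, b, hb, h⟩ | ⟨m, hm, b, hb, h⟩
      · exact Or.inl ⟨⟨m, hAG hm⟩, hm, ⟨b, hBG hb⟩, hb, Subtype.ext h⟩
      · exact Or.inr ⟨⟨m, hAG hm⟩, hm, ⟨b, hBG hb⟩, hb, Subtype.ext h⟩)
    (pt F x hx) (pt F y hy) (pt F z hz) (no x y hx hy hxy) (no x z hx hz hxz) (no y z hy hz hyz)
  intro v w hv hw
  obtain ⟨g, hg, h⟩ := key (pt F v hv) (pt F w hw)
  change g.1 • pt F v hv = _ at h
  rw [smul_pt, pt_eq_iff] at h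
  obtain ⟨a, ha⟩ := h
  exact ⟨g.1.1, mem_hat.2 ⟨g.1.2, hg⟩, a, ha⟩

/-- the elements of `hat K` commute with the preimage of `P` up to scalars -/
theorem comm_K (c : Cfg π P K B) (e : S ≃* Matrix.ProjectiveSpecialLinearGroup (Fin n) F)
    {k : Equiv.Perm (Fin n → F)} (hk : k ∈ hat e K) {x : Matrix.SpecialLinearGroup (Fin n) F}
    (hx : e.symm (QuotientGroup.mk x) ∈ P) :
    ∃ ζ : F, ζ ^ n = 1 ∧ ∀ v, k (x.1.mulVec v) = ζ • x.1.mulVec (k v) := by
  obtain ⟨h1, h2⟩ := mem_hat.1 hk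
  exact comm_of_fix e ⟨k, h1⟩ (c.fix _ h2 _ hx)

theorem mem_hat_pk (hfix : ∀ k ∈ K, ∀ x ∈ P, k x = x) (e : S ≃* Matrix.ProjectiveSpecialLinearGroup (Fin n) F)
    {g : Equiv.Perm (Fin n → F)} : g ∈ hat e (pk P K) ↔
      ∃ x : Matrix.SpecialLinearGroup (Fin n) F, e.symm (QuotientGroup.mk x) ∈ P ∧ ∃ k ∈ hat e K, g = mp x * k := by
  constructor
  · intro h
    obtain ⟨h1, h2⟩ := mem_hat.1 h
    obtain ⟨s, hs, k, hk, h3⟩ := (mem_pk hfix).1 h2
    obtain ⟨x, hx⟩ := QuotientGroup.mk_surjective (e s)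
    have hs' : e.symm (QuotientGroup.mk x) = s := by rw [hx, e.symm_apply_apply]
    refine ⟨x, by rw [hs']; exact hs, (mp x)⁻¹ * g, ?_, by rw [mul_inv_cancel_left]⟩
    have h4 : (mp x)⁻¹ * g ∈ Sem F (Fin n → F) := mul_mem (inv_mem (mp_mem x)) h1
    refine mem_hat.2 ⟨h4, ?_⟩
    have h5 : (⟨(mp x)⁻¹ * g, h4⟩ : Sem F (Fin n → F)) = ⟨mp x, mp_mem x⟩⁻¹ * ⟨g, h1⟩ := rfl
    rw [h5, map_mul, map_inv, Th_SL e ⟨mp x, mp_mem x⟩ (x := x) (mp_apply x), hs', h3, inv_mul_cancel_left]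
    exact hk
  · rintro ⟨x, hx, k, hk, rfl⟩
    exact mul_mem (mp_mem_hat.2 (conj_mem_pk hx)) (hat_mono e le_pk hk)

theorem eq_one_of_conj [IsSimpleGroup S] (hna : ¬ IsMulCommutative S) {s : S} (h : MulAut.conj s = 1) : s = 1 := by
  have h1 : s ∈ Subgroup.center S := by
    rw [Subgroup.mem_center_iff]
    intro g
    have := congrArg (fun α : MulAut S => α g) h
    simp only [MulAut.conj_apply, MulAut.one_apply] at this
    exact (mul_inv_eq_iff_eq_mul.1 this).symm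
  rcases Subgroup.Normal.eq_bot_or_eq_top (inferInstance : (Subgroup.center S).Normal) with h2 | h2
  · rw [h2, Subgroup.mem_bot] at h1
    exact h1
  · exfalso
    apply hna
    refine ⟨⟨fun a b => ?_⟩⟩
    have : b ∈ Subgroup.center S := by rw [h2]; trivial
    exact Subgroup.mem_center_iff.1 this a

theorem conj_inj [IsSimpleGroup S] (hna : ¬ IsMulCommutative S) : Function.Injective (MulAut.conj : S →* MulAut S) :=
  (injective_iff_map_eq_one _).2 fun _ h => eq_one_of_conj hna h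

/-- `B` does not contain the inner automorphisms -/
theorem not_inn_le [Finite S] [IsSimpleGroup S] (hna : ¬ IsMulCommutative S) (c : Cfg π P K B) : ¬ inn S ≤ B := by
  intro h
  apply c.nnil
  by_cases h1 : Nat.card P = 1
  · have : Subsingleton P := (Nat.card_eq_one_iff_unique.1 h1).1
    infer_instance
  · exfalso
    obtain ⟨r, hr, hd⟩ := Nat.exists_prime_and_dvd h1
    refine c.piB r hr (c.hall.1 r hr hd) ?_
    have : Nat.card (P.map (MulAut.conj : S →* MulAut S)) = Nat.card P :=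
      Subgroup.card_map_of_injective (conj_inj hna)
    rw [← this] at hd
    refine hd.trans (Subgroup.card_dvd_of_le ?_)
    rintro _ ⟨x, -, rfl⟩
    exact h ⟨x, rfl⟩

/-- `hat B` does not contain `SL(V)` -/
theorem not_sl_le [Finite S] [IsSimpleGroup S] (hna : ¬ IsMulCommutative S) (c : Cfg π P K B)
    (e : S ≃* Matrix.ProjectiveSpecialLinearGroup (Fin n) F) :
    ¬ ∀ g : (Fin n → F) ≃ₗ[F] (Fin n → F), LinearEquiv.det g = 1 → ∃ h ∈ hat e B, ∀ v, h v = g v := by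
  intro h
  apply not_inn_le hna c
  rintro _ ⟨s, rfl⟩
  obtain ⟨x, hx⟩ := QuotientGroup.mk_surjective (e s)
  have hs' : e.symm (QuotientGroup.mk x) = s := by rw [hx, e.symm_apply_apply]
  obtain ⟨g, hg, h1⟩ := h (slE (Pi.basisFun F (Fin n)) x : (Fin n → F) ≃ₗ[F] (Fin n → F))
    (slE (Pi.basisFun F (Fin n)) x).2
  obtain ⟨h2, h3⟩ := mem_hat.1 hg
  rw [Th_SL e ⟨g, h2⟩ (x := x) (fun v => by rw [← slE_std]; exact h1 v), hs'] at h3
  exact h3

end cov

end Cfsg.Agent.H125.DPi
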